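import Cfsg.Agent.H799.PiBS.Inv3
import Cfsg.Agent.UGT.A7.Five

/-!
# `Inv3` for the alternating group of degree five (helper799, S3876)
-/

set_option autoImplicit false
set_option maxRecDepth 100000

namespace Cfsg.Agent.H799.PiBS

open Subgroup Cfsg Equiv

theorem a5_comm : ∀ σ : Perm (Fin 5), σ * σ = 1 → σ ≠ 1 → ∃ a : Perm (Fin 5), Perm.sign a = 1 ∧
    (σ * a * σ⁻¹ * a⁻¹) ^ 3 = 1 ∧ σ * a * σ⁻¹ * a⁻¹ ≠ 1 := by decide +kernel

theorem inv3_alt5 : Inv3 (alternatingGroup (Fin 5)) := by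
  intro x hx
  obtain ⟨ψ, hψ⟩ := Cfsg.Agent.UGT.A7.Dg.exists_autHom5
  have hxx : x * x = 1 := by rw [← pow_two, ← hx, pow_orderOf_eq_one]
  have h1 : ψ x * ψ x = 1 := by rw [← map_mul, hxx, map_one]
  have h2 : ψ x ≠ 1 := by
    intro h
    have h3 : x = 1 := by
      ext a : 2
      rw [hψ, h, one_mul, inv_one, mul_one]
      rfl
    rw [h3, orderOf_one] at hx
    omega
  obtain ⟨a, ha, h3, h4⟩ := a5_comm _ h1 h2
  refine ⟨⟨a, Perm.mem_alternatingGroup.2 ha⟩, ?_⟩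
  have e : ((x ⟨a, Perm.mem_alternatingGroup.2 ha⟩ * (⟨a, Perm.mem_alternatingGroup.2 ha⟩ :
      alternatingGroup (Fin 5))⁻¹ : alternatingGroup (Fin 5)) : Perm (Fin 5)) = ψ x * a * (ψ x)⁻¹ * a⁻¹ := by
    rw [Subgroup.coe_mul, hψ]
    rfl
  have : Fact (Nat.Prime 3) := ⟨Nat.prime_three⟩
  rw [← Subgroup.orderOf_coe, e, orderOf_eq_prime h3 h4]

theorem alt5_not_solvable : ¬ Group.IsSolvable (alternatingGroup (Fin 5)) := by
  intro h
  apply Equiv.Perm.fin_5_not_solvable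
  refine Group.isSolvable_of_ker_le_range (alternatingGroup (Fin 5)).subtype (Equiv.Perm.sign (α := Fin 5)) ?_
  rw [Subgroup.range_subtype]
  exact fun g hg => hg

end Cfsg.Agent.H799.PiBS
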