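import Cfsg.Agent.H799.PiBS.AltFive
import Cfsg.Agent.H383.R23.J3

/-!
# `Inv3` for the third Janko group (helper799, S3876; after H383.R23.J3)
-/

set_option autoImplicit false

namespace Cfsg.Agent.H799.PiBS.J3

open Cfsg Subgroup
open Cfsg.Agent.J2Type.Model Cfsg.Agent.J2Type.CStruct Cfsg.Agent.J3Type.PresDef Cfsg.Agent.J3Type.OneClass
  Cfsg.Agent.J3Type Cfsg.Agent.J3Type.Loc Cfsg.Agent.J3Type.Chain
open Cfsg.Agent.H383.R23 Cfsg.Agent.H383.R23.J3

universe u

theorem card_alt5 : Nat.card (alternatingGroup (Fin 5)) = 60 := by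
  rw [nat_card_alternatingGroup, Nat.card_eq_fintype_card, Fintype.card_fin]
  decide

theorem isSolvable_of_pGroup {G : Type u} [Group G] [Finite G] {p : ℕ} [Fact p.Prime] (h : IsPGroup p G) :
    Group.IsSolvable G := by
  have := h.isNilpotent
  infer_instance

theorem inner_or_bad {K : Type u} [Group K] (h : Spor.IsoJ3 K) (x : MulAut K) (hx : orderOf x = 2) :
    Bad x ∨ ∃ g : K, x = MulAut.conj g := by
  obtain ⟨hcK, hM, hone, -⟩ := Cfsg.Agent.CpAutJThree.base h
  have hs : IsSimpleGroup K := (Cfsg.Agent.H898.J3Cent.base h).1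
  have hfin : Finite K := Nat.finite_of_card_ne_zero (by rw [hcK]; norm_num)
  have hcen : center K = ⊥ := Cfsg.Agent.H269.CubeTools.center_bot_of_simple (by rw [hcK]; norm_num)
  obtain ⟨t, ht, hxt⟩ := exists_fixed x hx (by rw [hcK]; norm_num)
  have ht1 : t ≠ 1 := by
    rintro rfl
    rw [orderOf_one] at ht
    exact absurd ht (by norm_num)
  obtain ⟨y, s, c, f, g, u, h', d, w, x', v', L, A, htop⟩ := exists_gens hcK t (hM t ht) hone
  obtain ⟨-, hcard, Q, v, ρ, M⟩ := hM t ht
  have hxM : ∀ m ∈ centralizer ({t} : Set K), x m ∈ centralizer ({t} : Set K) := by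
    intro m hm
    rw [mem_centralizer_singleton_iff] at hm ⊢
    have := congrArg x hm
    rwa [map_mul, map_mul, hxt] at this
  have htop' : centralizer ({t} : Set K) ≠ ⊤ := by
    intro h1
    have h2 : t ∈ center K := by
      rw [mem_center_iff]
      intro g
      exact mem_centralizer_singleton_iff.1 (h1 ▸ mem_top g)
    rw [hcen, mem_bot] at h2
    exact ht1 h2
  have hxx : ∀ a, x (x a) = a := by
    intro a
    have h1 : x * x = 1 := by rw [← pow_two, ← hx, pow_orderOf_eq_one]
    exact congrArg (fun φ : MulAut K => φ a) h1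
  let θ : MulAut ↥(centralizer ({t} : Set K)) :=
    { toFun := fun m => ⟨x m, hxM m m.2⟩
      invFun := fun m => ⟨x m, hxM m m.2⟩
      left_inv := fun m => Subtype.ext (hxx m)
      right_inv := fun m => Subtype.ext (hxx m)
      map_mul' := fun a b => Subtype.ext (map_mul x _ _) }
  obtain ⟨φ, hφ, hφρ⟩ := exists_hom M
  have hcC : Nat.card ↥(centralizer ({t} : Set K)) = 1920 := hcard
  have hs5 : IsSimpleGroup (alternatingGroup (Fin 5)) := alternatingGroup.isSimpleGroup (by simp)
  have hsol : Group.IsSolvable ↥φ.ker := by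
    have : Fact (Nat.Prime 2) := ⟨Nat.prime_two⟩
    have h1 := Subgroup.card_eq_card_quotient_mul_card_subgroup φ.ker
    rw [Nat.card_congr (QuotientGroup.quotientKerEquivOfSurjective φ hφ).toEquiv, hcC, card_alt5] at h1
    have h2 : Nat.card ↥φ.ker = 2 ^ 5 := by omega
    exact isSolvable_of_pGroup (IsPGroup.of_card h2)
  rcases eq_or_bad_simple (by rw [← pow_two, ← hx, pow_orderOf_eq_one]) hxM alt5_not_solvable φ hφ hsol inv3_alt5 with
    hbad | hR
  · exact Or.inl hbad
  right
  have hσ : ∀ c, (ρ (θ c)).σ = (ρ c).σ := by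
    intro c
    rw [← hφρ, ← hφρ]
    exact congrArg Subtype.val (hR c)
  have hzt : θ (zc t) = zc t := Subtype.ext hxt
  obtain ⟨q, hq⟩ := J3Loc.fix_v M θ hzt hσ
  let β : MulAut K := MulAut.conj (q : K) * x
  have hqt : (q : K) * t = t * q := mem_centralizer_singleton_iff.1 q.2
  have hβt : β t = t := by
    show MulAut.conj (q : K) (x t) = t
    rw [hxt, MulAut.conj_apply, hqt, mul_inv_cancel_right]
  have hβ : ∀ m : K, m * t = t * m → β m = m ∨ β m = t * m := by
    intro m hm
    have hm' : m ∈ centralizer ({t} : Set K) := mem_centralizer_singleton_iff.2 hm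
    have h1 := J3Loc.eq_or M (MulAut.conj q * θ) (by
      rw [MulAut.mul_apply, hzt, MulAut.conj_apply]
      apply Subtype.ext
      show (q : K) * t * (q : K)⁻¹ = t
      rw [hqt, mul_inv_cancel_right]) (fun i => by
      rw [MulAut.mul_apply, MulAut.conj_apply]
      exact hq i) ⟨m, hm'⟩
    rcases h1 with h1 | h1
    · left
      exact congrArg Subtype.val h1
    · right
      exact congrArg Subtype.val h1
  have htt : t * t = 1 := L.z2
  have hβc : β c = c := by
    rcases hβ c L.zc.symm with h1 | h1
    · exact h1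
    · exfalso
      have e := congrArg β L.c3
      rw [map_mul, map_mul, h1, map_one] at e
      apply ht1
      have hc : c * t = t * c := L.zc.symm
      calc t = t * (c * c * c) := by rw [L.c3, mul_one]
        _ = t * c * (t * t * c) * c := by rw [htt]; group
        _ = t * c * (t * (t * c)) * c := by group
        _ = t * c * (t * (c * t)) * c := by rw [hc]
        _ = t * c * (t * c) * (t * c) := by group
        _ = 1 := e
  have tri : ∀ a b : K, a * t = t * a → b * t = t * b → β a = a → a * b * (a * b) * (a * b) = 1 → β b = b := by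
    intro a b ha hb hβa hab
    rcases hβ b hb with h1 | h1
    · exact h1
    · exfalso
      have e := congrArg β hab
      rw [map_mul, map_mul, map_mul, hβa, h1, map_one] at e
      apply ht1
      have hc : a * b * t = t * (a * b) := by rw [mul_assoc, hb, ← mul_assoc, ha, mul_assoc]
      have e2 : a * (t * b) = t * (a * b) := by rw [← mul_assoc, ha, mul_assoc]
      rw [e2] at e
      calc t = t * (a * b * (a * b) * (a * b)) := by rw [hab, mul_one]
        _ = t * (a * b) * (t * t * (a * b)) * (a * b) := by rw [htt]; group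
        _ = t * (a * b) * (t * (t * (a * b))) * (a * b) := by group
        _ = t * (a * b) * (t * (a * b * t)) * (a * b) := by rw [hc]
        _ = t * (a * b) * (t * (a * b)) * (t * (a * b)) := by group
        _ = 1 := e
  have hβf : β f = f := tri c f L.zc.symm L.zf.symm hβc L.cf
  have hβh : β h' = h' := tri f h' L.zf.symm L.zh.symm hβf L.fh
  have hβg : β g = g := by rw [L.g_def, map_mul, map_mul, map_inv, hβc, hβf]
  have hβs : β s = s := by
    rcases hβ s L.zs.symm with h1 | h1
    · exact h1
    · exfalso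
      have hst : s * t = t * s := L.zs.symm
      have hβy : β y = t * y := by
        rw [L.y_def, map_mul, map_mul, hβh, h1]
        rw [← mul_assoc h' t s, L.zh.symm]
        group
      have comm : ∀ a b : K, a * t = t * a → a * (t * b) = t * (a * b) := by
        intro a b ha
        rw [← mul_assoc, ha, mul_assoc]
      have e := congrArg β L.prod
      simp only [map_mul, h1, hβy, hβf, hβg, hβt] at e
      have hf := L.zf.symm
      have hg := L.zg
      have tl : ∀ a : K, t * (t * a) = a := fun a => by rw [← mul_assoc, htt, one_mul]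
      have hp := L.prod
      simp only [mul_assoc] at e hp
      simp only [comm _ _ hf, comm _ _ hg, comm _ _ hst, tl] at e
      rw [hp, htt] at e
      exact ht1 e.symm
  have hfinal : ∃ g : K, β = MulAut.conj g := by
    rcases J3Loc.eq_one_or L A htop β hβt hβc hβf hβh hβs with h1 | h1
    · exact ⟨1, by rw [h1, map_one]⟩
    · exact ⟨t, h1⟩
  obtain ⟨g₀, hg₀⟩ := hfinal
  refine ⟨(q : K)⁻¹ * g₀, ?_⟩
  rw [map_mul, map_inv, ← hg₀]
  show x = (MulAut.conj (q : K))⁻¹ * (MulAut.conj (q : K) * x)
  rw [inv_mul_cancel_left]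


theorem inv3_j3 {K : Type u} [Group K] (h : Cfsg.Spor.IsoJ3 K) : Inv3 K := by
  obtain ⟨hcK, hM, hone, -⟩ := Cfsg.Agent.CpAutJThree.base h
  have hs : IsSimpleGroup K := (Cfsg.Agent.H898.J3Cent.base h).1
  have hfin : Finite K := Nat.finite_of_card_ne_zero (by rw [hcK]; norm_num)
  have hcen : center K = ⊥ := Cfsg.Agent.H269.CubeTools.center_bot_of_simple (by rw [hcK]; norm_num)
  refine Inv3.of_cases hcen (fun r hr hr1 => ?_) fun x hx _ hin => (inner_or_bad h x hx).resolve_right hin
  have : Fact (Nat.Prime 2) := ⟨Nat.prime_two⟩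
  have hr2 : orderOf r = 2 := orderOf_eq_prime (by rw [pow_two, hr]) hr1
  obtain ⟨y, s, c, f, g, u, h', d, w, x', v', L, A, -⟩ := exists_gens hcK r (hM r hr2) hone
  have hf1 : f ≠ 1 := by
    intro h1
    have h2 := L.fu
    rw [h1, one_mul, L.toCEl.u2] at h2
    exact L.z_ne (by rw [← h2])
  have hne : f * h' ≠ 1 := by
    intro h1
    have h2 : h' = f := by
      have h3 := eq_inv_of_mul_eq_one_right h1
      rw [h3]
      exact inv_eq_of_mul_eq_one_left L.f2
    have h4 := L.fy
    rw [L.y_def, h2] at h4
    have h5 : s * f = f * s := by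
      calc s * f = f * f * s * f := by rw [L.f2, one_mul]
        _ = f * (f * s * f) := by group
        _ = f * s * f * f := h4
        _ = f * s * (f * f) := by group
        _ = f * s := by rw [L.f2, mul_one]
    have h6 : u = f := by
      rw [L.u_def, h5, mul_assoc, L.s2, mul_one]
    have h7 := L.fu
    rw [h6, L.f2, mul_one] at h7
    exact L.z_ne h7.symm
  refine (Bad.of_dihedral (s := f) (t := h') L.f2 L.h2 (by rw [pow_succ, pow_two]; exact L.fh) hne).inner
    (hone f r (orderOf_eq_prime (by rw [pow_two, L.f2]) hf1) hr2)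

end Cfsg.Agent.H799.PiBS.J3
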