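import Cfsg.Agent.H799.PiBS.Inv3
import Cfsg.Agent.Lib.F2MatGroup
import Cfsg.Agent.H820.SL32

/-!
# `Inv3` for `SL(3, 2)` (helper799, S3876)

Every nontrivial automorphism `x` has an element `a` with `x a * a⁻¹` of order three: a kernel computation over the
336 images of a generating pair of orders two and three.
-/

set_option autoImplicit false
set_option maxRecDepth 100000

namespace Cfsg.Agent.H799.PiBS.L32

open Subgroup Cfsg Cfsg.Agent.Lib.F2Mat
open Cfsg.Agent.H820.SL32 (S3)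

theorem exists_code (M : Matrix (Fin 3) (Fin 3) (ZMod 2)) : ∃ A < 512, toMat 3 A = M := by
  have hinj : Function.Injective (fun A : Fin 512 => toMat 3 A.1) := fun A B h =>
    Fin.ext (toMat_inj (n := 3) A.2 B.2 h)
  have hb : Function.Bijective (fun A : Fin 512 => toMat 3 A.1) := by
    rw [Fintype.bijective_iff_injective_and_card]
    refine ⟨hinj, ?_⟩
    have h : Fintype.card (Matrix (Fin 3) (Fin 3) (ZMod 2)) = Fintype.card (Fin 3 → Fin 3 → ZMod 2) := rfl
    rw [h, Fintype.card_fin, Fintype.card_fun, Fintype.card_fun, ZMod.card, Fintype.card_fin]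
    norm_num
  obtain ⟨A, hA⟩ := hb.2 M
  exact ⟨A.1, A.2, hA⟩

/-- `A` is the code of `g` -/
def Cd (g : S3) (A : ℕ) : Prop := A < 512 ∧ g.1 = toMat 3 A

theorem exists_cd (g : S3) : ∃ A, Cd g A := by
  obtain ⟨A, h1, h2⟩ := exists_code g.1
  exact ⟨A, h1, h2.symm⟩

theorem Cd.mul {g h : S3} {A B : ℕ} (hg : Cd g A) (hh : Cd h B) : Cd (g * h) (mul 3 A B) :=
  ⟨mul_lt (by norm_num) A B, by
    rw [toMat_mul, ← hg.2, ← hh.2]
    rfl⟩

theorem Cd.one : Cd 1 (one 3) := ⟨one_lt' (n := 3), by rw [toMat_one]; rfl⟩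

theorem Cd.eq {g h : S3} {A : ℕ} (hg : Cd g A) (hh : Cd h A) : g = h := Subtype.ext (hg.2.trans hh.2.symm)

theorem Cd.inj {g : S3} {A B : ℕ} (hg : Cd g A) (hh : Cd g B) : A = B :=
  toMat_inj (n := 3) hg.1 hh.1 (hg.2.symm.trans hh.2)

/-- word in a pair: `0` is `P`, `1` is `Q`, everything else is `Q²` -/
def ev (P Q : ℕ) (w : List ℕ) : ℕ :=
  List.rec (one 3) (fun i _ ih => mul 3 (Nat.rec P (fun j _ => Nat.rec Q (fun _ _ => mul 3 Q Q) j) i) ih) w

/-- the same word in the group -/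
def eg {G : Type*} [Group G] (p q : G) : List ℕ → G
  | [] => 1
  | 0 :: w => p * eg p q w
  | 1 :: w => q * eg p q w
  | (_ + 2) :: w => (q * q) * eg p q w

theorem cd_ev {p q : S3} {P Q : ℕ} (hp : Cd p P) (hq : Cd q Q) : ∀ w : List ℕ, Cd (eg p q w) (ev P Q w)
  | [] => Cd.one
  | 0 :: w => hp.mul (cd_ev hp hq w)
  | 1 :: w => hq.mul (cd_ev hp hq w)
  | (_ + 2) :: w => (hq.mul hq).mul (cd_ev hp hq w)

theorem map_eg {G : Type*} [Group G] (x : MulAut G) (p q : G) : ∀ w : List ℕ, x (eg p q w) = eg (x p) (x q) w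
  | [] => map_one x
  | 0 :: w => by rw [eg, eg, map_mul, map_eg]
  | 1 :: w => by rw [eg, eg, map_mul, map_eg]
  | (_ + 2) :: w => by rw [eg, eg, map_mul, map_mul, map_eg]

/-- the elements with square one -/
def l2 : List ℕ := [84, 124, 161, 167, 214, 233, 266, 273, 275, 277, 279, 281, 302, 305, 309, 313, 337, 345, 401, 403,
  458, 465]

/-- the elements with cube one -/
def l3 : List ℕ := [85, 87, 93, 98, 110, 117, 123, 125, 140, 159, 174, 177, 179, 181, 183, 185, 206, 213, 215, 230,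
  234, 236, 241, 249, 267, 271, 273, 282, 286, 299, 303, 314, 318, 331, 340, 342, 346, 348, 359, 372, 380, 395, 410,
  417, 419, 421, 423, 425, 444, 459, 461, 468, 470, 474, 481, 489, 498]

/-- the words and the inverses of their values -/
def ws : List (List ℕ × ℕ) := [([0], 84), ([0, 1, 0, 2], 86), ([1, 0, 2, 0, 1, 0, 2], 214), ([0, 1, 0, 1, 0, 2], 460),
  ([2, 0, 1], 305), ([1], 359), ([0, 1, 0, 1, 0, 1], 94), ([1, 0, 1, 0, 2], 481), ([0, 1], 335)]

theorem k2 : ∀ P < 512, Nat.beq (mul 3 P P) (one 3) = true → P ∈ l2 := by decide +kernel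
theorem k3 : ∀ P < 512, Nat.beq (mul 3 P (mul 3 P P)) (one 3) = true → P ∈ l3 := by decide +kernel
theorem kw : ∀ w ∈ ws, Nat.beq (mul 3 (ev 84 174 w.1) w.2) (one 3) = true := by decide +kernel

/-- seventh power -/
def p7 (A : ℕ) : ℕ := mul 3 A (mul 3 (mul 3 A A) (mul 3 (mul 3 A A) (mul 3 A A)))

/-- the check -/
def chk (P Q : ℕ) : Bool :=
  (Nat.beq P 84 && Nat.beq Q 174) || ws.any fun w =>
    force (mul 3 (ev P Q w.1) w.2) fun c => Nat.beq (mul 3 c (mul 3 c c)) (one 3) && !(Nat.beq c (one 3))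

theorem kchk : ∀ P ∈ l2, Nat.beq P 273 = false → ∀ Q ∈ l3, Nat.beq (p7 (mul 3 P Q)) (one 3) = true →
    chk P Q = true := by decide +kernel

/-- the element of `SL(3, 2)` with code `A`, when `A ^ k = 1` -/
theorem exists_elt {A B : ℕ} (hA : A < 512) (h : Nat.beq (mul 3 A B) (one 3) = true) : ∃ g : S3, Cd g A := by
  have h1 : toMat 3 A * toMat 3 B = 1 := by
    rw [← toMat_mul, Nat.eq_of_beq_eq_true h, toMat_one]
  have h2 : (toMat 3 A).det * (toMat 3 B).det = 1 := by rw [← Matrix.det_mul, h1, Matrix.det_one]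
  have h3 : (toMat 3 A).det = 1 := by
    have key : ∀ a b : ZMod 2, a * b = 1 → a = 1 := by decide
    exact key _ _ h2
  exact ⟨⟨toMat 3 A, h3⟩, hA, rfl⟩

theorem ka : Nat.beq (mul 3 84 84) (one 3) = true := by decide +kernel
theorem kb : Nat.beq (mul 3 174 (mul 3 174 174)) (one 3) = true := by decide +kernel
theorem kb1 : Nat.beq 174 (one 3) = false := by decide +kernel
theorem k84 : Nat.beq (ev 84 174 [0]) (one 3) = false := by decide +kernel
theorem kab : Nat.beq (p7 (ev 84 174 [0, 1])) (one 3) = true := by decide +kernel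
theorem kab1 : Nat.beq (ev 84 174 [0, 1]) (one 3) = false := by decide +kernel
theorem kc : Nat.beq (mul 3 (mul 3 (ev 84 174 [0, 1, 0, 2]) (ev 84 174 [0, 1, 0, 2]))
  (mul 3 (ev 84 174 [0, 1, 0, 2]) (ev 84 174 [0, 1, 0, 2]))) (one 3) = true := by decide +kernel
theorem kc1 : Nat.beq (mul 3 (ev 84 174 [0, 1, 0, 2]) (ev 84 174 [0, 1, 0, 2])) (one 3) = false := by decide +kernel

theorem Cd.eq_one {g : S3} {A : ℕ} (hg : Cd g A) (h : Nat.beq A (Lib.F2Mat.one 3) = true) : g = 1 := by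
  rw [Nat.eq_of_beq_eq_true h] at hg
  exact hg.eq Cd.one

theorem Cd.ne_one {g : S3} {A : ℕ} (hg : Cd g A) (h : Nat.beq A (Lib.F2Mat.one 3) = false) : g ≠ 1 := by
  rintro rfl
  rw [Cd.inj hg Cd.one, Nat.beq_refl] at h
  exact absurd h (by decide)

theorem Cd.beq_of_eq_one {g : S3} {A : ℕ} (hg : Cd g A) (h : g = 1) : Nat.beq A (Lib.F2Mat.one 3) = true := by
  subst h
  rw [Cd.inj hg Cd.one, Nat.beq_refl]

theorem Cd.p7 {g : S3} {A : ℕ} (hg : Cd g A) : Cd (g ^ 7) (p7 A) := by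
  have e : g ^ 7 = g * ((g * g) * ((g * g) * (g * g))) := by
    simp only [pow_succ, pow_zero, one_mul, mul_assoc]
  rw [e]
  exact hg.mul ((hg.mul hg).mul ((hg.mul hg).mul (hg.mul hg)))

/-- generators of orders two and three -/
theorem gen {p q : S3} (hp : Cd p 84) (hq : Cd q 174) : Subgroup.closure {p, q} = ⊤ := by
  have hpm : p ∈ Subgroup.closure {p, q} := subset_closure (Set.mem_insert _ _)
  have hqm : q ∈ Subgroup.closure {p, q} := subset_closure (Set.mem_insert_of_mem _ rfl)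
  have hc : Cd (eg p q [0, 1]) (ev 84 174 [0, 1]) := cd_ev hp hq _
  have hd : Cd (eg p q [0, 1, 0, 2]) (ev 84 174 [0, 1, 0, 2]) := cd_ev hp hq _
  set c := eg p q [0, 1] with hcd
  set d := eg p q [0, 1, 0, 2] with hdd
  have hcm : c ∈ Subgroup.closure {p, q} := mul_mem hpm (mul_mem hqm (one_mem _))
  have hdm : d ∈ Subgroup.closure {p, q} :=
    mul_mem hpm (mul_mem hqm (mul_mem hpm (mul_mem (mul_mem hqm hqm) (one_mem _))))
  have hfin := Cfsg.Agent.H820.SL32.finite
  have h7 : orderOf c = 7 := by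
    have : Fact (Nat.Prime 7) := ⟨by norm_num⟩
    exact orderOf_eq_prime (hc.p7.eq_one kab) (hc.ne_one kab1)
  have h4 : orderOf d = 2 ^ (1 + 1) := by
    have : Fact (Nat.Prime 2) := ⟨Nat.prime_two⟩
    refine orderOf_eq_prime_pow ?_ ?_
    · rw [pow_one, pow_two]
      exact (hd.mul hd).ne_one kc1
    · have e : d ^ 2 ^ (1 + 1) = (d * d) * (d * d) := by
        norm_num
        simp only [pow_succ, pow_zero, one_mul, mul_assoc]
      rw [e]
      exact ((hd.mul hd).mul (hd.mul hd)).eq_one kc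
  apply Cfsg.Agent.H820.SL32.eq_top_of_dvd
  have e7 : 7 ∣ Nat.card (Subgroup.closure {p, q}) := by
    rw [← h7, ← Subgroup.orderOf_mk c hcm]
    exact orderOf_dvd_natCard _
  have e4 : 4 ∣ Nat.card (Subgroup.closure {p, q}) := by
    have : 4 = orderOf d := by rw [h4]; norm_num
    rw [this, ← Subgroup.orderOf_mk d hdm]
    exact orderOf_dvd_natCard _
  exact Nat.Coprime.mul_dvd_of_dvd_of_dvd (by norm_num : Nat.Coprime 4 7) e4 e7

theorem eq_or_bad' (x : MulAut S3) : x = 1 ∨ Bad x := by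
  obtain ⟨p, hp⟩ := exists_elt (by norm_num) ka
  obtain ⟨q, hq⟩ := exists_elt (by norm_num) kb
  obtain ⟨P, hP⟩ := exists_cd (x p)
  obtain ⟨Q, hQ⟩ := exists_cd (x q)
  have hpp : p * p = 1 := (hp.mul hp).eq_one ka
  have hqq : q * (q * q) = 1 := (hq.mul (hq.mul hq)).eq_one kb
  have hp1 : p ≠ 1 := (cd_ev hp hq [0]).ne_one k84 ∘ fun h => by
    show p * 1 = 1
    rw [h, one_mul]
  have hpq : (p * q) ^ 7 = 1 := by
    have h := (cd_ev hp hq [0, 1]).p7.eq_one kab
    have e : eg p q [0, 1] = p * q := by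
      show p * (q * 1) = _
      rw [mul_one]
    rwa [e] at h
  have m2 : P ∈ l2 := k2 P hP.1 ((hP.mul hP).beq_of_eq_one (by rw [← map_mul, hpp, map_one]))
  have m3 : Q ∈ l3 := k3 Q hQ.1 ((hQ.mul (hQ.mul hQ)).beq_of_eq_one (by rw [← map_mul, ← map_mul, hqq, map_one]))
  have n1 : Nat.beq P 273 = false := by
    rw [Bool.eq_false_iff]
    intro h
    have h1 : x p = 1 := hP.eq_one h
    exact hp1 ((map_eq_one_iff x x.injective).1 h1)
  have c7 : Nat.beq (p7 (mul 3 P Q)) (one 3) = true :=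
    (hP.mul hQ).p7.beq_of_eq_one (by rw [← map_mul, ← map_pow, hpq, map_one])
  have key := kchk P m2 n1 Q m3 c7
  unfold chk at key
  rw [Bool.or_eq_true] at key
  rcases key with h | h
  · left
    rw [Bool.and_eq_true] at h
    have e1 : x p = p := by
      rw [Nat.eq_of_beq_eq_true h.1] at hP
      exact hP.eq hp
    have e2 : x q = q := by
      rw [Nat.eq_of_beq_eq_true h.2] at hQ
      exact hQ.eq hq
    have h3 : x.toMonoidHom = MonoidHom.id S3 := by
      refine MonoidHom.eq_of_eqOn_dense (gen hp hq) ?_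
      rintro t (rfl | rfl)
      · exact e1
      · exact e2
    exact MulEquiv.ext fun t => DFunLike.congr_fun h3 t
  · right
    rw [List.any_eq_true] at h
    obtain ⟨⟨w, v⟩, hw, hc⟩ := h
    rw [force_eq, Bool.and_eq_true, Bool.not_eq_true'] at hc
    obtain ⟨r, hr⟩ := exists_elt (A := ev 84 174 w) (B := v) (cd_ev hp hq w).1 (kw _ hw)
    obtain ⟨V, hV⟩ := exists_cd (eg p q w)⁻¹
    have h1 : toMat 3 (ev 84 174 w) * toMat 3 v = 1 := by
      rw [← toMat_mul, Nat.eq_of_beq_eq_true (kw _ hw), toMat_one]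
    have h2 : ((eg p q w)⁻¹ : S3).1 = toMat 3 v := by
      have e1 : (eg p q w).1 = toMat 3 (ev 84 174 w) := (cd_ev hp hq w).2
      have e2 : ((eg p q w)⁻¹ : S3).1 * (eg p q w).1 = 1 := by
        have : ((eg p q w)⁻¹ * eg p q w : S3) = 1 := inv_mul_cancel _
        exact congrArg Subtype.val this
      calc ((eg p q w)⁻¹ : S3).1 = ((eg p q w)⁻¹ : S3).1 * (toMat 3 (ev 84 174 w) * toMat 3 v) := by
            rw [h1, mul_one]
        _ = toMat 3 v := by rw [← mul_assoc, ← e1, e2, one_mul]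
    have hv : v < 512 := by
      revert hw
      have : ∀ w ∈ ws, w.2 < 512 := by decide
      exact this (w, v)
    have hW : Cd (x (eg p q w) * (eg p q w)⁻¹) (mul 3 (ev P Q w) v) := by
      rw [map_eg]
      exact (cd_ev hP hQ w).mul ⟨hv, h2⟩
    have : Fact (Nat.Prime 3) := ⟨Nat.prime_three⟩
    refine ⟨eg p q w, ?_⟩
    rw [orderOf_eq_prime (p := 3) ?_ (hW.ne_one hc.2)]
    have e : (x (eg p q w) * (eg p q w)⁻¹) ^ 3 = (x (eg p q w) * (eg p q w)⁻¹) *
        ((x (eg p q w) * (eg p q w)⁻¹) * (x (eg p q w) * (eg p q w)⁻¹)) := by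
      rw [pow_succ, pow_two, mul_assoc]
    rw [e]
    exact (hW.mul (hW.mul hW)).eq_one hc.1

theorem inv3_l32 : Inv3 S3 := by
  intro x hx
  rcases eq_or_bad' x with h | h
  · rw [h, orderOf_one] at hx
    omega
  · exact h

end Cfsg.Agent.H799.PiBS.L32
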