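import Cfsg.Agent.H799.PiBS.Inv3
import Cfsg.Agent.UGT.End.MEleven
import Cfsg.Agent.OddHalf.D4.Spor.M2223
import Cfsg.Agent.OddHalf.D9.M22.EDataM22
import Cfsg.Agent.KFacts.MM.OutAut
import Cfsg.Agent.OddHalf.D4.Spor.MTwentyFour
import Cfsg.Agent.J4.M24Invol
import Cfsg.Agent.NotCT.Orders
import Cfsg.Agent.H459.Gallery

/-!
# `Inv3` for the Mathieu groups of degree 22, 23 and 24 (helper799, S3876)
-/

set_option autoImplicit false

namespace Cfsg.Agent.H799.PiBS

open Subgroup Cfsg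

/-! ### Words in packed permutations -/

section Words

open Cfsg.Agent.SporadicA.GolayBase Cfsg.Agent.SporadicA.GolayPerm
open Cfsg.Agent.KFacts.MM.El

theorem pr_replicate (n : ℕ) (w : List ℕ) : pr (List.replicate n w).flatten = pr w ^ n := by
  induction n with
  | zero => simp [pr_nil]
  | succ n ih => rw [List.replicate_succ, List.flatten_cons, pr_append, ih, pow_succ']

theorem okl_replicate (n : ℕ) {w : List ℕ} (h : okl w = true) : okl (List.replicate n w).flatten = true := by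
  unfold okl at h ⊢
  rw [List.all_eq_true] at h ⊢
  intro x hx
  rw [List.mem_flatten] at hx
  obtain ⟨l, hl, hxl⟩ := hx
  rw [List.eq_of_mem_replicate hl] at hxl
  exact h x hxl

theorem pr_pow {w : List ℕ} {n : ℕ} (h : okl w = true) (h1 : weq (List.replicate n w).flatten [] = true) :
    pr w ^ n = 1 := by
  rw [← pr_replicate, pr_of_weq (okl_replicate n h) rfl h1, pr_nil]

theorem orderOf_pr {w : List ℕ} {l : ℕ} (hl : l.Prime) (h : okl w = true)
    (h1 : weq (List.replicate l w).flatten [] = true) (h2 : weq w [] = false) : orderOf (pr w) = l := by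
  have := Fact.mk hl
  exact orderOf_eq_prime (pr_pow h h1) (by rw [← pr_nil]; exact pr_ne h rfl h2)

theorem pm_inv {C D : ℕ} (h : okl [C, D] = true) (h1 : weq [C, D] [] = true) : (pm C)⁻¹ = pm D := by
  have h2 := pr_of_weq h rfl h1
  rw [pr_cons, pr_one, pr_nil] at h2
  exact inv_eq_of_mul_eq_one_right h2

/-- the checks for a commutator of order three -/
def chk (P C D : ℕ) : Bool :=
  okl [P, C, P, D] && weq [P, P] [] && weq [C, D] [] && weq (List.replicate 3 [P, C, P, D]).flatten [] &&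
    !weq [P, C, P, D] []

theorem chk_order {P C D : ℕ} (h : chk P C D = true) :
    orderOf (pm P * pm C * (pm P)⁻¹ * (pm C)⁻¹) = 3 := by
  unfold chk at h
  simp only [Bool.and_eq_true, Bool.not_eq_true'] at h
  obtain ⟨⟨⟨⟨h1, h2⟩, h3⟩, h4⟩, h5⟩ := h
  have k : isPerm P = true ∧ isPerm C = true ∧ isPerm D = true := by
    obtain ⟨a, b⟩ := okl_cons h1
    obtain ⟨b, c⟩ := okl_cons b
    obtain ⟨_, d⟩ := okl_cons c
    exact ⟨a, b, (okl_cons d).1⟩
  have kPP : okl [P, P] = true := by simp [okl, k.1]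
  have kCD : okl [C, D] = true := by simp [okl, k.2.1, k.2.2]
  rw [pm_inv kPP h2, pm_inv kCD h3]
  have e : pm P * pm C * pm P * pm D = pr [P, C, P, D] := by
    rw [pr_cons, pr_cons, pr_cons, pr_one]
    group
  rw [e]
  exact orderOf_pr Nat.prime_three h1 h4 h5

/-- a bad inner automorphism -/
theorem bad_pm {H : Subgroup (Equiv.Perm GolayPt)} {P C D : ℕ} {t : H} (ht : (t : Equiv.Perm GolayPt) = pm P)
    (hC : pm C ∈ H) (h : chk P C D = true) : Bad (MulAut.conj t) := by
  refine ⟨⟨pm C, hC⟩, ?_⟩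
  have e : ((MulAut.conj t ⟨pm C, hC⟩ * (⟨pm C, hC⟩ : H)⁻¹ : H) : Equiv.Perm GolayPt) =
      pm P * pm C * (pm P)⁻¹ * (pm C)⁻¹ := by
    rw [← ht]
    rfl
  rw [← Subgroup.orderOf_coe, e, chk_order h]

end Words

/-! ### `M24` -/

section MTwentyFour

open Cfsg.Agent.SporadicA.GolayBase Cfsg.Agent.SporadicA.GolayPerm
open Cfsg.Agent.KFacts.MM.El
open Cfsg.Agent.SporadicStructure.M24El (el)
open Cfsg.Agent.J4.M24InvolData (P1 P2)
open Cfsg.Agent.OddHalf.D9.M22 (pm_M24)

theorem bad_el {P C D : ℕ} (hP : SporadicStructure.M24El.ok P = true) (hC : SporadicStructure.M24El.ok C = true)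
    (h : chk P C D = true) : Bad (MulAut.conj (el P)) :=
  bad_pm (coe_el hP) (pm_M24 hC) h

theorem bad_p1 : Bad (MulAut.conj (el P1)) :=
  bad_el (C := 437758707067709038914504134783280740) (D := 809109752100790879745335978585629126)
    (by decide +kernel) (by decide +kernel) (by decide +kernel)

theorem bad_p2 : Bad (MulAut.conj (el P2)) :=
  bad_el (C := 222851359312658648554998880393201219) (D := 816060454467999501769312992419128400)
    (by decide +kernel) (by decide +kernel) (by decide +kernel)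

theorem inv3_m24 {K : Type*} [Group K] [Finite K] [IsSimpleGroup K] (h : Cfsg.Spor.IsoM24 K) : Inv3 K := by
  have hn := NotCT.Orders.m24 h
  obtain ⟨e⟩ := h
  have hn' : Nat.card M24 = 244823040 := by rw [← hn, Nat.card_congr e.toEquiv]
  have : Finite M24 := Finite.of_equiv K e.toEquiv
  have hs : IsSimpleGroup M24 := e.symm.isSimpleGroup
  refine Inv3.congr e (Inv3.of_inner (center_bot (by rw [hn']; norm_num))
    Cfsg.Agent.KFacts.M24Two.Out.exists_conj fun t ht h1 => ?_)
  obtain ⟨g, hg | hg⟩ := Cfsg.Agent.J4.M24Invol.invol_conj t ht h1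
  · exact bad_p1.inner (isConj_iff.2 ⟨g, hg⟩).symm
  · exact bad_p2.inner (isConj_iff.2 ⟨g, hg⟩).symm

end MTwentyFour

/-! ### `M23` and `M22` -/

section MTwentyThree

open Cfsg.Agent.SporadicA.GolayBase Cfsg.Agent.SporadicA.GolayPerm
open Cfsg.Agent.KFacts.MM.El
open Cfsg.Agent.Schreier.SylMTwentyTwo (T T_le)
open Cfsg.Agent.OddHalf.D9.M22 (pm_M24 pm_M22)

/-- an involution of `M22` -/
def tP : ℕ := 983549167202528574218691039157455392
/-- an element of `M22` -/
def tC : ℕ := 957391178956800568771511465065272544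
/-- its inverse -/
def tD : ℕ := 959372083892655116824445465568818880

theorem tP_mem : pm tP ∈ Spor.M22 := pm_M22 (by decide +kernel)
theorem tC_mem : pm tC ∈ Spor.M22 := pm_M22 (by decide +kernel)

theorem tP_sq : pm tP * pm tP = 1 := by
  have h := pr_of_weq (l := [tP, tP]) (m := []) (by decide +kernel) rfl (by decide +kernel)
  rwa [pr_cons, pr_one, pr_nil] at h

theorem tP_ne : pm tP ≠ 1 := by
  have h := pr_ne (l := [tP]) (m := []) (by decide +kernel) rfl (by decide +kernel)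
  rwa [pr_one, pr_nil] at h

/-- every involution of `M22`, `M23` is bad -/
theorem bad_all {H : Subgroup (Equiv.Perm GolayPt)} [Finite H] (hTH : T ≤ H)
    (hidx : ¬ 2 ∣ (T.subgroupOf H).index) (hM : Spor.M22 ≤ H) (t : H) (h2 : t * t = 1) (h1 : t ≠ 1) :
    Bad (MulAut.conj t) := by
  obtain ⟨g, hg⟩ := OddHalf.D4.Spor.MathieuSyl.one_class hTH hidx hM t h2 h1
  obtain ⟨k, hk⟩ := OddHalf.D4.Spor.MathieuSyl.one_class hTH hidx hM ⟨pm tP, hM tP_mem⟩ (Subtype.ext tP_sq)
    (fun e => tP_ne (congrArg Subtype.val e))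
  have h3 : Bad (MulAut.conj (⟨pm tP, hM tP_mem⟩ : H)) :=
    bad_pm (P := tP) (C := tC) (D := tD) rfl (hM tC_mem) (by decide +kernel)
  exact h3.inner ((isConj_iff.2 ⟨k, hk⟩).symm.trans (isConj_iff.2 ⟨g, hg⟩))

theorem inv3_m23 {K : Type*} [Group K] [Finite K] [IsSimpleGroup K] (h : Cfsg.Spor.IsoM23 K) : Inv3 K := by
  have hn := NotCT.Orders.m23 h
  have hin := Cfsg.Agent.UGT.MTwentyThree.End.exists_conj (X := Spor.M23) ⟨MulEquiv.refl _⟩
  obtain ⟨e⟩ := h
  have hn' : Nat.card Spor.M23 = 10200960 := by rw [← hn, Nat.card_congr e.toEquiv]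
  have : Finite Spor.M23 := Finite.of_equiv K e.toEquiv
  have hs : IsSimpleGroup Spor.M23 := e.symm.isSimpleGroup
  exact Inv3.congr e (Inv3.of_inner (center_bot (by rw [hn']; norm_num)) hin fun t ht h1 =>
    bad_all OddHalf.D4.Spor.M2223.T_le23 OddHalf.D4.Spor.M2223.idx23 OddHalf.D4.Spor.M2223.M22_le_M23 t ht h1)

end MTwentyThree

section MTwentyTwo

open Cfsg.Agent.SporadicA.GolayBase Cfsg.Agent.SporadicA.GolayPerm
open Cfsg.Agent.KFacts.MM.El
open Cfsg.Agent.Schreier.SylMTwentyTwo (T T_le)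
open Cfsg.Agent.OddHalf.D9.M22 (pm_M24 pm_M22 outer_cases)
open Cfsg.Agent.OddHalf.D9.M22.Data (aP bP)
open Cfsg.Agent.KFacts.MM.OutAut (emb emb_inj emb_conj of_emb_mem ind_apply ind_mem)

theorem bad_outer {x : MulAut Spor.M22} {P C D : ℕ} (hx : emb x = pm P) (hC : pm C ∈ Spor.M22)
    (h : chk P C D = true) : Bad x := by
  refine ⟨⟨pm C, hC⟩, ?_⟩
  have e : ((x ⟨pm C, hC⟩ * (⟨pm C, hC⟩ : Spor.M22)⁻¹ : Spor.M22) : Equiv.Perm GolayPt) =
      pm P * pm C * (pm P)⁻¹ * (pm C)⁻¹ := by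
    rw [← hx]
    change (x ⟨pm C, hC⟩ : Equiv.Perm GolayPt) * (pm C)⁻¹ = _
    rw [ind_apply]
    rfl
  rw [← Subgroup.orderOf_coe, e, chk_order h]

/-- an automorphism inducing a conjugate of `pm P` -/
theorem bad_of_emb {x : MulAut Spor.M22} {P C D : ℕ} {g : Equiv.Perm GolayPt} (hg : g ∈ Spor.M22)
    (hx : emb x = g * pm P * g⁻¹) (hC : pm C ∈ Spor.M22) (h : chk P C D = true) : Bad x := by
  set y : MulAut Spor.M22 := (MulAut.conj (⟨g, hg⟩ : Spor.M22))⁻¹ * x * MulAut.conj (⟨g, hg⟩ : Spor.M22) with hy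
  have h1 : emb y = pm P := by
    rw [hy, map_mul, map_mul, map_inv, emb_conj, hx]
    group
  have h2 := (bad_outer h1 hC h).conj (MulAut.conj (⟨g, hg⟩ : Spor.M22))
  have h3 : MulAut.conj (⟨g, hg⟩ : Spor.M22) * y * (MulAut.conj (⟨g, hg⟩ : Spor.M22))⁻¹ = x := by
    rw [hy]
    group
  rwa [h3] at h2

theorem inv3_m22 {K : Type*} [Group K] [Finite K] [IsSimpleGroup K] (h : Cfsg.Spor.IsoM22 K) : Inv3 K := by
  have hn := NotCT.Orders.m22 h
  obtain ⟨e⟩ := h
  have hn' : Nat.card Spor.M22 = 443520 := by rw [← hn, Nat.card_congr e.toEquiv]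
  have : Finite Spor.M22 := Finite.of_equiv K e.toEquiv
  have hs : IsSimpleGroup Spor.M22 := e.symm.isSimpleGroup
  have hc : center Spor.M22 = ⊥ := center_bot (by rw [hn']; norm_num)
  refine Inv3.congr e fun x hx => ?_
  have hxx : x * x = 1 := by rw [← pow_two, ← hx, pow_orderOf_eq_one]
  have hx1 : x ≠ 1 := fun h => by rw [h, orderOf_one] at hx; omega
  by_cases hin : emb x ∈ Spor.M22
  · have h1 := of_emb_mem hin
    set t : Spor.M22 := ⟨emb x, hin⟩ with ht
    have ht2 : t * t = 1 := Subtype.ext (by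
      show emb x * emb x = 1
      rw [← map_mul, hxx, map_one])
    have ht1 : t ≠ 1 := fun e => hx1 (by rw [h1, e, map_one])
    rw [h1]
    exact bad_all T_le OddHalf.D4.Spor.M2223.idx22 le_rfl t ht2 ht1
  · obtain ⟨g, hg, h1 | h1⟩ := outer_cases (ind_mem x) hin (by
      show emb x * emb x = 1
      rw [← map_mul, hxx, map_one])
    · exact bad_of_emb hg h1 (C := 983549167202528574218691039157455392) (D := 983549167202528574218691039157455392)
        (pm_M22 (by decide +kernel)) (by decide +kernel)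
    · exact bad_of_emb hg h1 (C := 979656431555559492539676632201512096) (D := 983432231429557398545975516781420928)
        (pm_M22 (by decide +kernel)) (by decide +kernel)

end MTwentyTwo

end Cfsg.Agent.H799.PiBS
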