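import Cfsg.Agent.H799.PiBS.Inv3
import Cfsg.Agent.KFacts.Ru.InvC
import Cfsg.Agent.KFacts.Ru.Core
import Cfsg.Agent.KFacts.Ru.ConjWord
import Cfsg.Agent.RuLat.Main
import Cfsg.Agent.OddHalf.D4.Spor.RuIso
import Cfsg.Agent.RuC.Trans

/-!
# `Inv3` for the Rudvalis group (helper799, S3876)
-/

set_option autoImplicit false
set_option maxRecDepth 100000
set_option exponentiation.threshold 5000

namespace Cfsg.Agent.H799.PiBS.Ru

open Subgroup Cfsg
open Cfsg.Agent.SporadicB Cfsg.Agent.RuD.Letters Cfsg.Agent.SporRec.TCUpperCert Cfsg.Agent.SporRec.R3.Kernel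
open Cfsg.Agent.KFacts.Ru.ConjWord

universe u

/-- the product of `T` and `Y T Y⁻¹` -/
def c1 : List ℕ := [0, 5, 0, 5]

/-- the commutator of `S²` and a word -/
def c2 : List ℕ := [1, 1, 2, 3, 5, 7, 6, 6, 3, 5, 7, 2]

theorem chk : chkRel [[0, 0], [5, 5], [1, 1, 1, 1], c1 ++ (c1 ++ c1), (c2 ++ c2) ++ ((c2 ++ c2) ++ (c2 ++ c2))] = true := by
  decide +kernel

theorem ne1 : neK c1 [] 0 = true := by decide +kernel
theorem ne2 : neK (c2 ++ c2) [] 0 = true := by decide +kernel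

theorem bad_T : Bad (MulAut.conj (wprod ml [0] : RuOrder.H)) := by
  have h0 : wprod ml [0] * wprod ml [0] = (1 : RuOrder.H) := by
    rw [← wprod_append]; exact rel_of_chk chk _ (by simp)
  have hY : wprod ml [5] * wprod ml [5] = (1 : RuOrder.H) := by
    rw [← wprod_append]; exact rel_of_chk chk _ (by simp)
  have h3 : (wprod ml c1 : RuOrder.H) ^ 3 = 1 := by
    rw [pow_succ', pow_two, ← wprod_append, ← wprod_append]; exact rel_of_chk chk _ (by simp)
  have hne : (wprod ml c1 : RuOrder.H) ≠ 1 := ne_of 0 ne1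
  have e : (wprod ml c1 : RuOrder.H) = wprod ml [0] * (wprod ml [5] * wprod ml [0] * (wprod ml [5])⁻¹) := by
    rw [inv_eq_of_mul_eq_one_right hY, ← wprod_append, ← wprod_append, ← wprod_append]
    rfl
  rw [e] at h3 hne
  refine Bad.of_dihedral h0 ?_ h3 hne
  calc wprod ml [5] * wprod ml [0] * (wprod ml [5])⁻¹ * (wprod ml [5] * wprod ml [0] * (wprod ml [5])⁻¹)
      = wprod ml [5] * (wprod ml [0] * wprod ml [0]) * (wprod ml [5] : RuOrder.H)⁻¹ := by group
    _ = 1 := by rw [h0]; group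

theorem three_dvd {X : Type*} [Group X] {c : X} (h6 : c ^ 6 = 1) (h2 : c ^ 2 ≠ 1) : 3 ∣ orderOf c := by
  by_contra h
  have h1 : Nat.Coprime (orderOf c) 3 := ((Nat.Prime.coprime_iff_not_dvd Nat.prime_three).2 h).symm
  have h3 : orderOf c ∣ 2 * 3 := orderOf_dvd_of_pow_eq_one h6
  exact h2 (orderOf_dvd_iff_pow_eq_one.1 (h1.dvd_of_dvd_mul_right h3))

theorem bad_SS : Bad (MulAut.conj (wprod ml [1, 1] : RuOrder.H)) := by
  refine ⟨wprod ml [2, 3, 5, 7], ?_⟩
  have e : MulAut.conj (wprod ml [1, 1] : RuOrder.H) (wprod ml [2, 3, 5, 7]) * (wprod ml [2, 3, 5, 7])⁻¹ =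
      wprod ml c2 := by
    rw [MulAut.conj_apply, ← wprod_iw, ← wprod_iw, ← wprod_append, ← wprod_append, ← wprod_append]
    rfl
  rw [e]
  apply three_dvd
  · rw [show (6 : ℕ) = 2 * 3 by norm_num, pow_mul, pow_two, ← wprod_append, pow_succ', pow_two, ← wprod_append,
      ← wprod_append]
    exact rel_of_chk chk _ (by simp)
  · rw [pow_two, ← wprod_append]
    exact ne_of 0 ne2

theorem isoH : Spor.IsoRu RuOrder.H := ⟨RuLat.Main.equiv.symm⟩

theorem inv3_ru' : Inv3 RuOrder.H := by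
  have hcard : Nat.card RuOrder.H = 145926144000 := RuOrder.card_H
  have : Finite RuOrder.H := Nat.finite_of_card_ne_zero (by rw [hcard]; norm_num)
  have hs : IsSimpleGroup RuOrder.H := RuC.Trans.isSimple_of_isoRu isoH
  obtain ⟨C, -, -, hv, hU, -⟩ := KFacts.Ru.lets_model.exists_core
  refine Inv3.of_inner (center_bot (by rw [hcard]; norm_num)) (fun x => ?_) fun t htt ht1 => ?_
  · exact OddHalf.D4.Spor.RuIso.inn isoH x
  have ha : ((1, 0) : RuB.A4) ≠ 0 := by decide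
  rcases KFacts.Ru.InvC.invol_cases' C ha htt ht1 with ⟨g, hg⟩ | ⟨g, hg⟩
  · have h1 : C.z 1 = (wprod ml [1, 1] : RuOrder.H) := by
      have h2 := C.U_sq 1 1
      rw [one_pow] at h2
      rw [← h2, hU]
      rfl
    rw [h1] at hg
    exact bad_SS.inner (isConj_iff.2 ⟨g, hg⟩)
  · have h1 : C.v (1, 0) = (wprod ml [0] : RuOrder.H) := by
      rw [hv]
      rfl
    rw [h1] at hg
    exact bad_T.inner (isConj_iff.2 ⟨g, hg⟩)

theorem inv3_ru {K : Type u} [Group K] (h : Cfsg.Spor.IsoRu K) : Inv3 K := by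
  obtain ⟨e⟩ := h
  exact inv3_ru'.congr (e.trans Cfsg.Agent.RuLat.Main.equiv)

end Cfsg.Agent.H799.PiBS.Ru
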